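import Mathlib
import Cfsg.Agent.Lib.Helper38.Pmin3.Defs

/-!
# S2930 "Pmin3" package (C0): the context from 3-minimality
-/

set_option autoImplicit false

namespace Cfsg.Agent.Lib.Helper22.Pmin3

open Cfsg.Agent.Lib.Helper38.Pmin3

theorem lemC0 : LemC0 := by
  intro n hmin
  haveI : Fact (Nat.Prime 3) := ⟨Nat.prime_three⟩
  obtain ⟨S⟩ : Nonempty (Sylow 3 ↥(alternatingGroup (Fin n))) := Sylow.nonempty
  obtain ⟨-, M, ⟨hM, hSM⟩, huniq⟩ := hmin S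
  refine ⟨(S : Subgroup _), M, ⟨S.isPGroup', hSM, hM.1, ?_⟩⟩
  intro K hSK hK
  obtain ⟨M', hM', hKM'⟩ := (eq_top_or_exists_le_coatom K).resolve_left hK
  have h1 := huniq M' ⟨hM', hSK.trans hKM'⟩
  rw [← h1]
  exact hKM'

end Cfsg.Agent.Lib.Helper22.Pmin3
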