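import Mathlib
import Cfsg.Agent.Lib.Helper38.Pmin3.Defs

/-!
# S2930 "Pmin3" package (F1): Frattini, `L S = X`
-/

set_option autoImplicit false

universe u

namespace Cfsg.Agent.Lib.Helper22.Pmin3

open Cfsg.Agent.Lib.Helper38.Pmin3

theorem f1_sylow {G : Type u} [Group G] [Finite G] {p : ℕ} [Fact p.Prime] (S : Sylow p G)
    (L : Subgroup G) [L.Normal] :
    ∃ P : Sylow p ↥L, (P : Subgroup ↥L) = (S : Subgroup G).subgroupOf L := by
  obtain ⟨Q, hQ⟩ := (default : Sylow p ↥L).exists_comap_subtype_eq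
  obtain ⟨g, hg⟩ := MulAction.exists_smul_eq G Q S
  refine ⟨(MulAut.conjNormal g : MulAut ↥L) • (default : Sylow p ↥L), ?_⟩
  ext x
  rw [Sylow.pointwise_smul_def, Subgroup.mem_pointwise_smul_iff_inv_smul_mem, ← hQ,
    Subgroup.mem_subgroupOf, ← hg, Subgroup.mem_comap, Sylow.smul_def, Sylow.pointwise_smul_def,
    Subgroup.mem_pointwise_smul_iff_inv_smul_mem]
  have e : (L.subtype ((MulAut.conjNormal g : MulAut ↥L)⁻¹ • x) : G)
      = (MulAut.conj g)⁻¹ • (x : G) := by
    rw [← map_inv, ← map_inv]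
    simp [MulAut.smul_def]
  rw [e]

theorem f1_card (n : ℕ) (hn : 5 ≤ n) :
    12 ∣ Nat.card ↥(alternatingGroup (Fin n)) := by
  haveI : Nontrivial (Fin n) := Fin.nontrivial_iff_two_le.mpr (by omega)
  have h1 : 2 * Nat.card ↥(alternatingGroup (Fin n)) = n.factorial := by
    rw [two_mul_nat_card_alternatingGroup, Nat.card_perm, Nat.card_fin]
  have h2 : (4 : ℕ).factorial ∣ n.factorial := Nat.factorial_dvd_factorial (by omega)
  have h3 : 24 ∣ 2 * Nat.card ↥(alternatingGroup (Fin n)) := by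
    rw [h1]
    exact h2
  omega

theorem lemF1 : LemF1.{u} := by
  intro X _ _ L n hn hL ⟨e⟩ hmin S
  haveI := hL
  haveI : Fact (Nat.Prime 3) := ⟨Nat.prime_three⟩
  obtain ⟨hnn, M, ⟨hM, hSM⟩, huniq⟩ := hmin S
  by_contra hne
  obtain ⟨M', hM', hKM'⟩ := (eq_top_or_exists_le_coatom _).resolve_left hne
  have hMM' : M' = M := huniq M' ⟨hM', le_sup_right.trans hKM'⟩
  have hLM : L ≤ M := hMM' ▸ (le_sup_left.trans hKM')
  obtain ⟨P, hP⟩ := f1_sylow S L
  have hFr := Sylow.normalizer_sup_eq_top P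
  have hmap : (P : Subgroup ↥L).map L.subtype = (S : Subgroup X) ⊓ L := by
    rw [hP, Subgroup.subgroupOf_map_subtype]
  have hSN : (S : Subgroup X) ≤
      Subgroup.normalizer (((P : Subgroup ↥L).map L.subtype : Subgroup X) : Set X) := by
    intro s hs
    rw [Subgroup.mem_normalizer_iff]
    intro h
    rw [hmap, Subgroup.mem_inf, Subgroup.mem_inf]
    constructor
    · rintro ⟨h1, h2⟩
      exact ⟨(S : Subgroup X).mul_mem ((S : Subgroup X).mul_mem hs h1)
        ((S : Subgroup X).inv_mem hs), hL.conj_mem h h2 s⟩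
    · rintro ⟨h1, h2⟩
      refine ⟨?_, ?_⟩
      · have h3 := (S : Subgroup X).mul_mem ((S : Subgroup X).mul_mem
          ((S : Subgroup X).inv_mem hs) h1) hs
        simpa [mul_assoc] using h3
      · have h3 := hL.conj_mem _ h2 s⁻¹
        simpa [mul_assoc] using h3
  have hNne : Subgroup.normalizer (((P : Subgroup ↥L).map L.subtype : Subgroup X) : Set X)
      ≠ ⊤ := by
    intro htop
    have hPn : (P : Subgroup ↥L).Normal := by
      constructor
      intro p hp l
      have h1 : (l : X) ∈ Subgroup.normalizer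
          (((P : Subgroup ↥L).map L.subtype : Subgroup X) : Set X) := by
        rw [htop]
        exact Subgroup.mem_top _
      rw [Subgroup.mem_normalizer_iff] at h1
      have hp' : (p : X) ∈ (S : Subgroup X) := by
        rw [hP, Subgroup.mem_subgroupOf] at hp
        exact hp
      have h2 := (h1 (p : X)).mp (by rw [hmap]; exact ⟨hp', p.2⟩)
      rw [hmap] at h2
      rw [hP, Subgroup.mem_subgroupOf]
      exact h2.1
    haveI : IsSimpleGroup ↥(alternatingGroup (Fin n)) :=
      alternatingGroup.isSimpleGroup (by simpa using hn)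
    haveI : IsSimpleGroup ↥L := e.isSimpleGroup
    have h12 := f1_card n hn
    have hcard : Nat.card ↥L = Nat.card ↥(alternatingGroup (Fin n)) := Nat.card_congr e.toEquiv
    rcases hPn.eq_bot_or_eq_top with hb | ht
    · exact P.ne_bot_of_dvd_card (by rw [hcard]; exact dvd_trans (by norm_num) h12) hb
    · obtain ⟨k, hk⟩ := IsPGroup.iff_card.mp P.isPGroup'
      rw [ht, Subgroup.card_top, hcard] at hk
      have h2 : 2 ∣ 3 ^ k := by
        rw [← hk]
        exact dvd_trans (by norm_num) h12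
      have h3 := Nat.prime_two.dvd_of_dvd_pow h2
      omega
  obtain ⟨M2, hM2, hNM2⟩ := (eq_top_or_exists_le_coatom _).resolve_left hNne
  have hM2M : M2 = M := huniq M2 ⟨hM2, hSN.trans hNM2⟩
  have hle : (⊤ : Subgroup X) ≤ M := by
    rw [← hFr]
    exact sup_le (hM2M ▸ hNM2) hLM
  exact hM.1 (top_le_iff.mp hle)

end Cfsg.Agent.Lib.Helper22.Pmin3
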