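import Mathlib
import Cfsg.Agent.Lib.Helper38.Pmin3.Defs

/-!
# S2930 "Pmin3" package (F2): fourth powers lie in `L`
-/

set_option autoImplicit false

universe u

namespace Cfsg.Agent.Lib.Helper22.Pmin3

open Cfsg.Agent.Lib.Helper38.Pmin3

theorem f2_comm {X : Type u} [Group X] (b y l : X) (h : b * l * b⁻¹ = y * l * y⁻¹) :
    l * (b⁻¹ * y) = b⁻¹ * y * l := by
  calc l * (b⁻¹ * y) = b⁻¹ * (b * l * b⁻¹) * y := by group
    _ = b⁻¹ * (y * l * y⁻¹) * y := by rw [h]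
    _ = b⁻¹ * y * l := by group

theorem lemF2 : LemF2.{u} := by
  intro hAut X _ _ L n hn hL hC ⟨e⟩ x
  haveI := hL
  obtain ⟨φ, hφ⟩ : ∃ φ : MulAut ↥L, ∀ l : ↥L, ((φ l : ↥L) : X) = x * l * x⁻¹ :=
    ⟨MulAut.conjNormal x, fun l => MulAut.conjNormal_apply x l⟩
  obtain ⟨ψ, hψ⟩ : ∃ ψ : MulAut ↥(alternatingGroup (Fin n)),
      ∀ g, ψ g = e (φ (e.symm g)) :=
    ⟨e.symm.trans (φ.trans e), fun g => rfl⟩
  obtain ⟨a, ha⟩ := hAut n hn ψ
  have h4 : ∀ l : ↥L, ((e.symm a * l * (e.symm a)⁻¹ : ↥L) : X) = x ^ 4 * l * (x ^ 4)⁻¹ := by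
    intro l
    have h1 := ha (e l)
    rw [hψ, hψ, hψ, hψ] at h1
    simp only [MulEquiv.symm_apply_apply] at h1
    have h2 : φ (φ (φ (φ l))) = e.symm a * l * (e.symm a)⁻¹ := by
      apply e.injective
      rw [h1]
      simp
    have hx4 : x ^ 4 = x * x * x * x := by
      simp only [pow_succ, pow_zero, one_mul]
    rw [← h2, hφ, hφ, hφ, hφ, hx4]
    simp only [mul_inv_rev, mul_assoc]
  have h5 : ((e.symm a : ↥L) : X)⁻¹ * x ^ 4 ∈ Subgroup.centralizer (L : Set X) := by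
    rw [Subgroup.mem_centralizer_iff]
    intro l hl
    have h6 := h4 ⟨l, hl⟩
    simp only [Subgroup.coe_mul, Subgroup.coe_inv] at h6
    exact f2_comm _ _ _ h6
  have h7 := hC h5
  have h8 : ((e.symm a : ↥L) : X) * (((e.symm a : ↥L) : X)⁻¹ * x ^ 4) ∈ L :=
    L.mul_mem (e.symm a).2 h7
  simpa using h8

end Cfsg.Agent.Lib.Helper22.Pmin3
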