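import Mathlib
import Cfsg.Agent.Lib.Helper38.Pmin3.Defs

/-!
# S2930 "Pmin3" package (TRANS): 3-minimality is invariant under isomorphism
-/

set_option autoImplicit false

universe u

namespace Cfsg.Agent.Lib.Helper22.Pmin3

open Cfsg.Agent.Lib.Helper38.Pmin3

theorem lemTransport : LemTransport.{u} := by
  intro X _ _ n ⟨e⟩ hmin S'
  haveI : Fact (Nat.Prime 3) := ⟨Nat.prime_three⟩
  have hr : (S' : Subgroup ↥(alternatingGroup (Fin n))) ≤ e.toMonoidHom.range := by
    intro s _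
    exact ⟨e.symm s, e.apply_symm_apply s⟩
  obtain ⟨S, hS⟩ : ∃ S : Sylow 3 X, (S : Subgroup X) = Subgroup.comap e.toMonoidHom
      (S' : Subgroup ↥(alternatingGroup (Fin n))) :=
    ⟨S'.comapOfInjective e.toMonoidHom e.injective hr, Sylow.coe_comapOfInjective _ _ _ _⟩
  obtain ⟨hnn, M, ⟨hM, hSM⟩, huniq⟩ := hmin S
  refine ⟨?_, M.map e.toMonoidHom, ⟨?_, ?_⟩, ?_⟩
  · intro hn
    apply hnn
    rw [hS]
    exact hn.comap _
  · have h1 : IsCoatom (e.mapSubgroup M) := (e.mapSubgroup.isCoatom_iff M).mpr hM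
    exact h1
  · intro s hs
    have h1 : e.symm s ∈ (S : Subgroup X) := by
      rw [hS, Subgroup.mem_comap]
      show e (e.symm s) ∈ _
      rw [e.apply_symm_apply]
      exact hs
    exact ⟨e.symm s, hSM h1, e.apply_symm_apply s⟩
  · rintro M'' ⟨hM'', hSM''⟩
    have h1 : IsCoatom (e.symm.mapSubgroup M'') := (e.symm.mapSubgroup.isCoatom_iff M'').mpr hM''
    have h2 : e.symm.mapSubgroup M'' = M := by
      apply huniq
      refine ⟨h1, ?_⟩
      intro s hs
      rw [hS, Subgroup.mem_comap] at hs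
      exact ⟨e s, hSM'' hs, e.symm_apply_apply s⟩
    rw [← h2]
    ext y
    constructor
    · intro hy
      exact ⟨e.symm y, ⟨y, hy, rfl⟩, e.apply_symm_apply y⟩
    · rintro ⟨x, ⟨y', hy', rfl⟩, rfl⟩
      have h3 : e.toMonoidHom (e.symm.toMonoidHom y') = y' := e.apply_symm_apply y'
      have h4 : e.toMonoidHom (e.symm.toMonoidHom y') ∈ M'' := by
        rw [h3]
        exact hy'
      exact h4

end Cfsg.Agent.Lib.Helper22.Pmin3
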